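import Cfsg.Agent.Lib.BG.Quo
import Cfsg.Agent.Lib.Core.PSolvable

/-! Subgroups of order divisible by two primes only in `p`-solvable groups. -/

set_option autoImplicit false
set_option linter.unusedSectionVars false

namespace Cfsg.Lib.AQ

open Subgroup Cfsg.Lib.BG Cfsg.Lib.Transfer
open scoped Cfsg.Lib.Transfer commutatorElement

universe u

variable {p q : ℕ} [hp : Fact p.Prime] [hq : Fact q.Prime]

theorem relIndex_comap_mk {Y : Type u} [Group Y] (N : Subgroup Y) [N.Normal] (X : Subgroup (Y ⧸ N)) :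
    N.relIndex (X.comap (QuotientGroup.mk' N)) = Nat.card X := by
  have := relIndex_comap (⊥ : Subgroup (Y ⧸ N)) (QuotientGroup.mk' N) (X.comap (QuotientGroup.mk' N))
  rwa [MonoidHom.comap_bot, QuotientGroup.ker_mk',
    map_comap_eq_self_of_surjective (QuotientGroup.mk'_surjective N), relIndex_bot_left] at this

theorem lift_pq {Y : Type u} [Group Y] [Finite Y] (N : Subgroup Y) [N.Normal]
    (h1 : IsPGroup p N ∨ ¬ p ∣ Nat.card N) (h2 : ¬ q ∣ Nat.card N) {X : Subgroup (Y ⧸ N)}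
    (hX : PiGrp {p, q} X) (hd : q ∣ Nat.card X) (hi : ¬ p ∣ X.index) :
    ∃ X : Subgroup Y, PiGrp {p, q} X ∧ q ∣ Nat.card X ∧ ¬ p ∣ X.index := by
  set M := X.comap (QuotientGroup.mk' N) with hM
  have hle : N ≤ M := fun n hn => by
    rw [hM, mem_comap, QuotientGroup.mk'_apply, (QuotientGroup.eq_one_iff n).2 hn]; exact one_mem _
  have hr : N.relIndex M = Nat.card X := relIndex_comap_mk N X
  have hMi : M.index = X.index := index_comap_of_surjective _ (QuotientGroup.mk'_surjective N)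
  have hc := BG.card_mul_relIndex hle
  rcases h1 with h1 | h1
  · refine ⟨M, ?_, ?_, hMi ▸ hi⟩
    · unfold PiGrp
      rw [← hc, hr]
      exact PiNat.mul (PiGrp.of_pgroup h1 (by simp)) hX
    · rw [← hc, hr]; exact hd.mul_left _
  · have hN : PiGrp ({p, q} : Set ℕ)ᶜ N := fun r _ hd' h => by
      rcases h with rfl | rfl
      exacts [h1 hd', h2 hd']
    obtain ⟨K, hK, -⟩ := (Hall.mk' hle hN (by rw [compl_compl, hr]; exact hX)).exists_compl
      (le_top.trans (normalizer_eq_top N).ge)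
    have e : Nat.card K = Nat.card X := by rw [← hK.relIndex_left, hr]
    refine ⟨K, by unfold PiGrp; rw [e]; exact hX, e ▸ hd, ?_⟩
    rw [← relIndex_mul_index hK.right_le, hK.relIndex_right, hMi]
    exact fun h => (hp.out.dvd_mul.1 h).elim h1 hi

theorem exists_pq_aux (hpq : p ≠ q) (n : ℕ) : ∀ (Y : Type u) [Group Y] [Finite Y], Nat.card Y = n →
    IsPSolvable p Y → q ∣ Nat.card Y →
    ∃ X : Subgroup Y, PiGrp {p, q} X ∧ q ∣ Nat.card X ∧ ¬ p ∣ X.index := by
  induction n using Nat.strong_induction_on with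
  | _ n ih =>
  intro Y _ _ hn hs hd
  have : Nontrivial Y := by
    rw [← Finite.one_lt_card_iff_nontrivial]
    exact hq.out.one_lt.trans_le (Nat.le_of_dvd Nat.card_pos hd)
  have key : ∀ (N : Subgroup Y) [N.Normal], N ≠ ⊥ → IsPGroup p N ∨ ¬ p ∣ Nat.card N →
      ¬ q ∣ Nat.card N → ∃ X : Subgroup Y, PiGrp {p, q} X ∧ q ∣ Nat.card X ∧ ¬ p ∣ X.index := by
    intro N _ h0 h1 h2
    have e := card_eq_card_quotient_mul_card_subgroup N
    have hlt : Nat.card (Y ⧸ N) < n := by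
      rw [← hn, e]
      exact lt_mul_of_one_lt_right Nat.card_pos ((one_lt_card_iff_ne_bot N).2 h0)
    obtain ⟨X, a, b, c⟩ := ih _ hlt (Y ⧸ N) rfl (Core.isPSolvable_quotient hs N)
      ((hq.out.dvd_mul.1 (e ▸ hd)).resolve_right h2)
    exact lift_pq N h1 h2 a b c
  rcases Core.pCore_ne_bot_or_of_isPSolvable hs with h | h
  · exact key _ h (Or.inl (Core.pCore_isPGroup p Y)) fun h' =>
      hpq (pgroup_eq_of_dvd (Core.pCore_isPGroup p Y) hq.out h').symm
  · by_cases h2 : q ∣ Nat.card (pPrimeCore p Y)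
    · obtain ⟨P, hP⟩ := Syl.exists p (⊤ : Subgroup Y)
      obtain ⟨Q, hQ, hn⟩ := Syl.exists_inv (p := q) (A := P) (K := pPrimeCore p Y)
        (le_top.trans (normalizer_eq_top _).ge)
        (PiGrp.coprime_pgroup (PiGrp.p'_iff.2 (Core.not_dvd_card_pPrimeCore p Y))
          (Syl.pgroup hP)).symm (Or.inl (pgroup_sol (Syl.pgroup hP)))
      refine ⟨Q ⊔ P, PiGrp.sup (PiGrp.of_pgroup (Syl.pgroup hQ) (by simp))
        (PiGrp.of_pgroup (Syl.pgroup hP) (by simp)) hn,
        (Hall.dvd_card hQ hq.out h2 rfl).trans (card_dvd le_sup_left), fun h' => Syl.not_dvd' hP ?_⟩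
      rw [relIndex_top_right]
      exact h'.trans (index_dvd_of_le le_sup_right)
    · exact key _ h (Or.inr (Core.not_dvd_card_pPrimeCore p Y)) h2

theorem exists_pq (hpq : p ≠ q) {Y : Type u} [Group Y] [Finite Y] (hs : IsPSolvable p Y)
    (hd : q ∣ Nat.card Y) {P : Subgroup Y} (hP : Syl p P ⊤) :
    ∃ X : Subgroup Y, P ≤ X ∧ PiGrp {p, q} X ∧ q ∣ Nat.card X := by
  obtain ⟨X, a, b, c⟩ := exists_pq_aux hpq _ Y rfl hs hd
  obtain ⟨T, hT⟩ := Syl.exists p X
  have hT' : Syl p T ⊤ := Hall.trans_idx hT le_top (PiNat.p'_iff.2 (by rwa [relIndex_top_right]))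
  obtain ⟨g, -, rfl⟩ := Syl.exists_conj_eq hT' hP
  exact ⟨g ⋆ X, conj_mono g hT.le, a.conj g, by rwa [card_conj]⟩

variable {G : Type u} [Group G] [Finite G] {C N R : Subgroup G}

theorem exists_over (hpq : p ≠ q) [(C.subgroupOf N).Normal] (hs : IsPSolvable p (N ⧸ C.subgroupOf N))
    (hC : C ≤ N) (hR : Syl p R N) (hd : q ∣ C.relIndex N) :
    ∃ X : Subgroup G, R ≤ X ∧ C ≤ X ∧ X ≤ N ∧ PiNat {p, q} (C.relIndex X) ∧ q ∣ C.relIndex X := by
  set π := QuotientGroup.mk' (C.subgroupOf N) with hπ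
  have h1 : Syl p ((R.subgroupOf N).map π) ⊤ := by
    have := Hall.map ((Hall.subgroupOf_iff le_rfl hR.le).2 hR) π
    rwa [subgroupOf_self, ← MonoidHom.range_eq_map,
      MonoidHom.range_eq_top.2 (QuotientGroup.mk'_surjective _)] at this
  obtain ⟨X, a, b, c⟩ := exists_pq hpq hs hd h1
  have e : C.relIndex ((X.comap π).map N.subtype) = Nat.card X := by
    rw [← relIndex_subgroupOf (map_subtype_le _), ← comap_subtype (K := N) (H := map _ _),
      comap_map_eq_self_of_injective N.subtype_injective]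
    exact relIndex_comap_mk _ X
  refine ⟨(X.comap π).map N.subtype, fun r hr => ⟨⟨r, hR.le hr⟩, a ⟨_, hr, rfl⟩, rfl⟩,
    fun c hc => ⟨⟨c, hC hc⟩, ?_, rfl⟩, map_subtype_le _, e ▸ b, e ▸ c⟩
  have : π ⟨c, hC hc⟩ = 1 := (QuotientGroup.eq_one_iff _).2 hc
  rw [SetLike.mem_coe, mem_comap, this]
  exact one_mem _

end Cfsg.Lib.AQ
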