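import Cfsg.Agent.Lib.AQ.Hall
import Cfsg.Agent.Lib.BG.T01_Cyclic
import Cfsg.Agent.S2800

/-! The local step: Thompson's normal complement theorem above a self-centralizing subgroup. -/

set_option autoImplicit false
set_option linter.unusedSectionVars false

namespace Cfsg.Lib.AQ

open Subgroup Cfsg.Lib.BG Cfsg.Lib.Transfer
open scoped Cfsg.Lib.Transfer commutatorElement

universe u

variable {p q : ℕ} [hp : Fact p.Prime] [hq : Fact q.Prime]
variable {G : Type u} [Group G] [Finite G] {C D H N R W X : Subgroup G}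

theorem dvd_iff (hn : N ≤ 𝐍(C)) :
    q ∣ C.relIndex N ↔ ∃ Q : Subgroup G, IsPGroup q Q ∧ Q ≤ N ∧ ¬ Q ≤ C := by
  constructor
  · intro h
    obtain ⟨Q, hQ⟩ := Syl.exists q N
    exact ⟨Q, Syl.pgroup hQ, hQ.le, fun h' => Syl.not_dvd' hQ (h.trans (relIndex_dvd_left h' N))⟩
  · rintro ⟨Q, h1, h2, h3⟩
    refine Dvd.dvd.trans ?_ (relIndex_dvd_of_norm h2 hn)
    obtain ⟨k, hk⟩ := IsPGroup.iff_card.1 h1
    obtain ⟨j, -, hj⟩ := (Nat.dvd_prime_pow hq.out).1 (hk ▸ BG.relIndex_dvd_card C Q)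
    rw [hj]
    exact dvd_pow_self _ fun e => h3 (relIndex_eq_one.1 (by rw [hj, e, pow_zero]))

theorem perm_four : ∀ x : Equiv.Perm (Fin 4), x ≠ 1 →
    ∃ g, x * (g * x * g⁻¹) ≠ 1 ∧ (x * (g * x * g⁻¹)) ^ 2 = 1 := by decide +kernel

theorem not_S4 (hD : Nml D X) (ho : ¬ 2 ∣ Nat.card D) (h3 : ¬ 3 ∣ D.relIndex X) :
    ¬ Involves (Equiv.Perm (Fin 4)) X := by
  rintro ⟨K, T, _, ⟨e⟩⟩
  set f : K →* Equiv.Perm (Fin 4) := e.toMonoidHom.comp (QuotientGroup.mk' _) with hf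
  have hs : Function.Surjective f := e.surjective.comp (QuotientGroup.mk'_surjective _)
  have hle : (D.subgroupOf X).subgroupOf K ≤ f.ker := fun x hx => by
    by_contra h
    obtain ⟨g, h1, h2⟩ := perm_four _ h
    obtain ⟨k, rfl⟩ := hs g
    have hd : (((x * (k * x * k⁻¹) : K) : X) : G) ∈ D :=
      D.mul_mem hx (conj_mem_of_norm (hD.norm k.1.2) hx)
    have h4 : orderOf (f (x * (k * x * k⁻¹))) = 2 :=
      orderOf_eq_prime (by simpa using h2) (by simpa using h1)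
    refine ho (h4 ▸ (orderOf_map_dvd f _).trans ?_)
    rw [← Subgroup.orderOf_coe, ← Subgroup.orderOf_coe]
    exact D.orderOf_dvd_natCard hd
  have : (D.subgroupOf X).Normal := normal_subgroupOf_of_le_normalizer hD.norm
  refine h3 (Dvd.dvd.trans ?_ ((index_dvd_of_le hle).trans (relIndex_dvd_index_of_normal _ K)))
  rw [index_ker, MonoidHom.range_eq_top.2 hs, card_top, Nat.card_eq_fintype_card, Fintype.card_perm]
  decide

theorem npc_of (hD : PiGrp {p}ᶜ D) (hn : W ≤ 𝐍(D)) (hi : PiNat {p} (D.relIndex W)) :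
    HasNormalPComplement p W := by
  have h : Hall {p}ᶜ (D ⊓ W) W := Hall.mk' inf_le_right (hD.of_le inf_le_left)
    (by rwa [compl_compl, inf_relIndex_right])
  rw [BG.hasNormalPComplement_iff, h.pcore_eq (norm_inf hn (le_norm _))]
  exact h

theorem thompson_sub (hR : Syl p R X) (h : p ≠ 2 ∨ ¬ Involves (Equiv.Perm (Fin 4)) X)
    (h1 : HasNormalPComplement p ↥(X ⊓ 𝐍(R ⊓ 𝐂(R))))
    (h2 : HasNormalPComplement p ↥(X ⊓ 𝐍(thompsonSubgroupOf 0 R))) : HasNormalPComplement p X := by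
  obtain ⟨T, rfl⟩ := Syl.iff_sylow.1 hR
  have key : ∀ (A : Subgroup X) (B : Subgroup G), A.map X.subtype ≤ B →
      HasNormalPComplement p ↥(X ⊓ B) → HasNormalPComplement p A := fun A B h1 h2 =>
    hasNormalPComplement_of_equiv (hasNormalPComplement_of_le (le_inf (map_subtype_le _) h1) h2)
      (A.equivMapOfInjective _ X.subtype_injective).symm
  refine Cfsg.Agent.S2800.result T h (key _ _ ?_ h1) (key _ _ ?_ h2)
  · rw [← PLocal.map_inf_centralizer X.subtype_injective]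
    exact map_norm _ (cent_le_norm _)
  · rw [← PLocal.map_thompsonSubgroupOf X.subtype_injective, PLocal.thompsonSubgroupAOf_eq]
    exact map_norm _ le_rfl

theorem thompson_local (hpq : p ≠ q) (h23 : p = 2 → q ≠ 3) (hX : X ≤ 𝐍(H)) (hC : 𝐂(H) ≤ X)
    (hR : Syl p R X) (hH : H ≤ R) (hc : R ⊓ 𝐂(H) ≤ H) (hπ : PiNat {p, q} (𝐂(H).relIndex X))
    (key : ∀ C : Subgroup G, C ≠ ⊥ → C ≤ R → 𝐍(R) ≤ 𝐍(C) → ¬ q ∣ 𝐂(H).relIndex (X ⊓ 𝐍(C))) :
    ¬ q ∣ 𝐂(H).relIndex X := by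
  have pR := Syl.pgroup hR
  have nC : X ≤ 𝐍(𝐂(H)) := norm_cent hX
  have hP : Syl p (R ⊓ 𝐂(H)) 𝐂(H) := Hall.inf_nml hR ⟨hC, nC⟩
  have hsd := Burnside_normal_complement hP (inf_le_left.trans (cent_anti hc))
  set D := 𝐎({p}ᶜ, 𝐂(H)) with hD
  have nD : X ≤ 𝐍(D) := norm_pcore nC _
  have pD : PiGrp {p}ᶜ D := pcore_pi _ _
  have iD : PiNat {p} (D.relIndex 𝐂(H)) := hsd.relIndex_left ▸ hP.pi
  have mul : ∀ W ≤ X, D.relIndex W ∣ D.relIndex 𝐂(H) * 𝐂(H).relIndex W := fun W hW => by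
    have e := relIndex_mul_relIndex (D ⊓ W) (𝐂(H) ⊓ W) W (inf_le_inf_right _ hsd.left_le) inf_le_right
    rw [inf_relIndex_right, inf_relIndex_right] at e
    rw [← e]
    refine mul_dvd_mul_right ?_ _
    rw [show D ⊓ W = D ⊓ (𝐂(H) ⊓ W) by rw [← inf_assoc, inf_eq_left.2 hsd.left_le], inf_relIndex_right]
    exact relIndex_dvd_of_norm inf_le_left (hC.trans nD)
  have npc : ∀ C : Subgroup G, C ≠ ⊥ → C ≤ R → 𝐍(R) ≤ 𝐍(C) → HasNormalPComplement p ↥(X ⊓ 𝐍(C)) :=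
    fun C h0 h1 h2 => npc_of pD (inf_le_left.trans nD) ((iD.mul fun r hr hd =>
      (hπ r hr (hd.trans (relIndex_dvd_of_norm inf_le_left nC))).resolve_right
        fun e => key C h0 h1 h2 ((show r = q from e) ▸ hd)).of_dvd (mul _ inf_le_left))
  by_cases h0 : R = ⊥
  · have : H = ⊥ := eq_bot_mono h0 hH
    rw [relIndex_eq_one.2 (show X ≤ 𝐂(H) from cent_symm (this ▸ bot_le))]
    exact fun h => hq.out.one_lt.ne' (Nat.dvd_one.1 h)
  have hN : HasNormalPComplement p X := by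
    refine thompson_sub hR ?_ (npc _ (center_ne_bot_of_nil (pgroup_nil pR) h0) inf_le_left
      (norm_center le_rfl)) (npc _ (PLocal.thompsonSubgroupOf_ne_bot (Or.inl rfl) pR h0)
      (PLocal.thompsonSubgroupOf_le _) (PLocal.normalizer_le_normalizer_thompsonSubgroupOf _))
    by_cases h2 : p = 2
    · subst h2
      refine Or.inr (not_S4 ⟨hsd.left_le.trans hC, nD⟩ (PiGrp.p'_iff.1 pD) fun h => ?_)
      rcases ((iD.mono (by simp)).mul hπ).of_dvd (mul _ le_rfl) 3 Nat.prime_three h with e | e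
      · omega
      · exact h23 rfl (show 3 = q from e).symm
    · exact Or.inl h2
  rw [dvd_iff nC]
  rintro ⟨Q, h1, h2, h3⟩
  refine h3 fun g hg => mem_centralizer_of_hasNormalPComplement_subgroup hN (pgroup_of_le pR hH)
    (hH.trans hR.le) (h2 hg) (hX (h2 hg)) ?_
  obtain ⟨k, hk⟩ := IsPGroup.iff_card.1 h1
  exact Nat.Coprime.coprime_dvd_left (hk ▸ Q.orderOf_dvd_natCard hg)
    (((Nat.coprime_primes hq.out hp.out).2 hpq.symm).pow_left k)

end Cfsg.Lib.AQ
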