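import Cfsg.Agent.Lib.AQ.Loc

/-! Prime divisors of automizers of `p`-subgroups move to subgroups normal in a Sylow subgroup. -/

set_option autoImplicit false
set_option linter.unusedSectionVars false

namespace Cfsg.Lib.AQ

open Subgroup Cfsg.Lib.BG Cfsg.Lib.Transfer
open scoped Cfsg.Lib.Transfer commutatorElement

universe u

variable {p q : ℕ} [hp : Fact p.Prime] [hq : Fact q.Prime]

/-- All automizers of `p`-subgroups are `p`-solvable. -/
def AutSol (p : ℕ) (G : Type u) [Group G] : Prop :=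
  ∀ H : Subgroup G, IsPGroup p H → IsPSolvable p (𝐍(H) ⧸ 𝐂(H).subgroupOf 𝐍(H))

/-- `H ⊴ R` are `p`-subgroups and `q` divides the order of the automizer of `H`. -/
structure Pr (p q : ℕ) {G : Type u} [Group G] (R H : Subgroup G) : Prop where
  le : H ≤ R
  pg : IsPGroup p R
  nm : R ≤ 𝐍(H)
  dv : q ∣ 𝐂(H).relIndex 𝐍(H)

theorem psol_of_ker {A B A' : Type*} [Group A] [Group B] [Group A'] [Finite A] (h : IsPSolvable p A)
    (φ : B →* A) (ψ : B →* A') (hψ : Function.Surjective ψ) (hk : φ.ker ≤ ψ.ker) :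
    IsPSolvable p A' := by
  refine Core.isPSolvable_of_surjective (Core.isPSolvable_subgroup h φ.range)
    (f := φ.rangeRestrict.liftOfSurjective φ.rangeRestrict_surjective
      ⟨ψ, by rwa [MonoidHom.ker_rangeRestrict]⟩) fun a => ?_
  obtain ⟨b, rfl⟩ := hψ a
  exact ⟨φ.rangeRestrict b, MonoidHom.liftOfRightInverse_comp_apply _ _ _ _ _⟩

variable {G : Type u} [Group G] [Finite G] {C H R : Subgroup G}

theorem AutSol.quo (h : AutSol p G) (hC : IsPGroup p C) : AutSol p (QG C) := fun K hK => by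
  have hn : ∀ b : 𝐍(K).comap (qhom C), ((b : 𝐍(C)) : G) ∈ 𝐍(copre C K) := fun b =>
    copre_norm le_rfl (mem_copre.2 ⟨b.1.2, b.2⟩)
  refine psol_of_ker (h _ (pgroup_copre hC hK))
    ((QuotientGroup.mk' _).comp ((𝐍(C).subtype.comp (𝐍(K).comap (qhom C)).subtype).codRestrict _ hn))
    ((QuotientGroup.mk' _).comp ((qhom C).subgroupComap 𝐍(K)))
    ((QuotientGroup.mk'_surjective _).comp (MonoidHom.subgroupComap_surjective_of_surjective _ _
      (QuotientGroup.mk'_surjective _))) fun b hb => ?_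
  have h1 : ((b : 𝐍(C)) : G) ∈ 𝐂(copre C K) :=
    (QuotientGroup.eq_one_iff (N := 𝐂(copre C K).subgroupOf 𝐍(copre C K)) ⟨_, hn b⟩).1 hb
  refine (QuotientGroup.eq_one_iff _).2 ?_
  have := quo_cent (le_refl 𝐂(copre C K)) C (mem_quo.2 ⟨b.1, h1, rfl⟩)
  rwa [quo_copre] at this

theorem Pr.copre {R K : Subgroup (QG C)} (h : Pr p q R K) (hC : IsPGroup p C) :
    Pr p q (copre C R) (copre C K) := by
  refine ⟨copre_mono h.le, pgroup_copre hC h.pg, copre_norm h.nm, ?_⟩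
  have hl : 𝐂(K) ≤ 𝐍(K) := cent_le_norm K
  have e := relIndex_quo (Nml.copre_self (N := C) 𝐂(K)) (copre_le_norm 𝐍(K)) (copre_mono hl)
  rw [quo_copre, quo_copre] at e
  have h1 : 𝐂(BG.copre C K) ≤ BG.copre C 𝐂(K) := by
    rw [le_copre_iff ((cent_anti (le_copre K)).trans (cent_le_norm C))]
    have := quo_cent (le_refl 𝐂(BG.copre C K)) C
    rwa [quo_copre] at this
  exact (e ▸ h.dv).trans ((relIndex_dvd_left h1 _).trans
    (relIndex_dvd_of_norm (copre_norm le_rfl) (norm_cent le_rfl)))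

theorem Pr.conj (h : Pr p q R H) (g : G) : Pr p q (g ⋆ R) (g ⋆ H) :=
  ⟨conj_mono g h.le, (pgroup_conj g).2 h.pg, conj_normalizer g H ▸ conj_mono g h.nm, by
    rw [← conj_normalizer, ← conj_centralizer, relIndex_conj]; exact h.dv⟩

theorem Pr.grow (h : Pr p q R H) (hR : Syl p R 𝐍(H)) : Pr p q R (H ⊔ R ⊓ 𝐂(H)) := by
  have nC : Nml 𝐂(H) 𝐍(H) := ⟨cent_le_norm H, norm_cent le_rfl⟩
  have e := Syl.frattini (Hall.inf_nml hR nC) nC
  have h1 : q ∣ 𝐂(H).relIndex (𝐍(H) ⊓ 𝐍(R ⊓ 𝐂(H))) := by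
    have h2 := h.dv
    rw [dvd_iff (inf_le_left.trans nC.norm)]
    obtain ⟨Q, hQ⟩ := Syl.exists q (𝐍(H) ⊓ 𝐍(R ⊓ 𝐂(H)))
    refine ⟨Q, Syl.pgroup hQ, hQ.le, fun h3 => Syl.not_dvd' hQ (Dvd.dvd.trans ?_ (relIndex_dvd_left h3 _))⟩
    rwa [← e, PGroup.relIndex_sup_of_le_normalizer (inf_le_left.trans nC.norm)] at h2
  refine ⟨sup_le h.le inf_le_left, h.pg, norm_sup h.nm (norm_inf (le_norm R) (norm_cent h.nm)), ?_⟩
  obtain ⟨Q, a, b, c⟩ := (dvd_iff (inf_le_left.trans nC.norm)).1 h1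
  exact (dvd_iff (norm_cent le_rfl)).2 ⟨Q, a, norm_sup (b.trans inf_le_left) (b.trans inf_le_right),
    fun h => c (h.trans (cent_anti le_sup_left))⟩

theorem main_aux (hpq : p ≠ q) (h23 : p = 2 → q ≠ 3) (n : ℕ) : ∀ (G : Type u) [Group G] [Finite G],
    Nat.card G = n → AutSol p G → (∃ R H : Subgroup G, Pr p q R H) →
    ∃ R H : Subgroup G, Pr p q R H ∧ Syl p R ⊤ := by
  induction n using Nat.strong_induction_on with
  | _ n ih =>
  intro G _ _ hn hs ⟨R₀, H₀, h₀⟩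
  obtain ⟨R, ⟨H₁, h₁⟩, m1⟩ := Set.Finite.exists_maximalFor (fun R : Subgroup G => Nat.card R)
    {R | ∃ H, Pr p q R H} (Set.toFinite _) ⟨R₀, H₀, h₀⟩
  obtain ⟨H, h, m2⟩ := Set.Finite.exists_maximalFor (fun H : Subgroup G => Nat.card H)
    {H | Pr p q R H} (Set.toFinite _) ⟨H₁, h₁⟩
  have h : Pr p q R H := h
  have mx : ∀ R' H', Pr p q R' H' → Nat.card R' ≤ Nat.card R := fun R' H' h' =>
    (le_total _ _).elim id (m1 ⟨H', h'⟩)
  refine ⟨R, H, h, by_contra fun hR => ?_⟩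
  obtain ⟨T, hT, hRT⟩ := Syl.exists_ge h.pg (le_norm R)
  have hlt : Nat.card R < Nat.card T := lt_of_not_ge fun h' => hR (Syl.of_norm (by
    rw [top_inf_eq, eq_of_le_of_card_le hRT h']
    rwa [eq_of_le_of_card_le hRT h'] at hT))
  have sR : Syl p R 𝐍(H) := Syl.of_max h.nm h.pg fun Q a b c =>
    (eq_of_le_of_card_le b (mx Q H ⟨h.le.trans b, a, c, h.dv⟩)).ge
  have hc : R ⊓ 𝐂(H) ≤ H := le_sup_right.trans (eq_of_le_of_card_le le_sup_left
    (m2 (h.grow sR) (card_le_of_le le_sup_left))).ge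
  obtain ⟨X, x1, x2, x3, x4, x5⟩ := exists_over hpq (hs H (pgroup_of_le h.pg h.le)) (cent_le_norm H)
    sR h.dv
  refine thompson_local hpq h23 x3 x2 (Hall.of_le sR x1 x3) h.le hc x4 (fun C h0 h1 h2 h3 => ?_) x5
  obtain ⟨Q, a, b, c⟩ := (dvd_iff (inf_le_left.trans (norm_cent x3))).1 h3
  have pC := pgroup_of_le h.pg h1
  have hQ : Q ≤ 𝐍(C) := b.trans inf_le_right
  have hQH : Q ≤ 𝐍(H) := b.trans (inf_le_left.trans x3)
  have hHC : H ≤ 𝐍(C) := h.le.trans ((le_norm R).trans h2)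
  by_cases hQC : Q ≤ 𝐂(C)
  swap
  · exact hlt.not_ge (mx T C ⟨h1.trans hRT, Syl.pgroup hT, hT.le.trans h2,
      (dvd_iff (norm_cent le_rfl)).2 ⟨Q, a, hQ, hQC⟩⟩)
  have hcard : Nat.card (QG C) < n := by
    have e := card_copre (N := C) ⊤
    rw [copre_top, card_top] at e
    refine lt_of_lt_of_le ?_ (hn ▸ card_le_card_group 𝐍(C))
    rw [e]
    exact lt_mul_of_one_lt_left Nat.card_pos ((one_lt_card_iff_ne_bot C).2 h0)
  have pH := pgroup_quo (pgroup_of_le h.pg h.le) C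
  obtain ⟨S, K, hK, hS⟩ := ih _ hcard (QG C) rfl (hs.quo pC) ⟨quo H C, quo H C, le_rfl, pH, le_norm _,
    (dvd_iff (norm_cent le_rfl)).2 ⟨quo Q C, pgroup_quo a C, quo_norm hQH C, fun h4 => c (by
      rw [quo_le_cent_iff hQ hHC, commutator_comm] at h4
      rw [← comm_eq_bot_iff', ← coprime_commGid hQH ((PiGrp.of_pgroup a (π := {p}ᶜ)
        hpq.symm).coprime_pgroup (pgroup_of_le h.pg h.le)), comm_eq_bot_iff']
      exact hQC.trans (cent_anti h4))⟩⟩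
  have hS' : Syl p (copre C S) 𝐍(C) := Hall.copre (PiGrp.p_iff.2 pC) ⟨le_norm C, le_rfl⟩ (by
    rwa [← quo_copre (N := C) ⊤, copre_top] at hS)
  exact hlt.not_ge ((Syl.card_le hS' (Syl.pgroup hT) (hT.le.trans h2)).trans (mx _ _ (hK.copre pC)))

theorem main (hpq : p ≠ q) (h23 : p = 2 → q ≠ 3) (hs : AutSol p G) (hH : IsPGroup p H)
    (hd : q ∣ 𝐂(H).relIndex 𝐍(H)) (hR : Syl p R ⊤) : ∃ K, Pr p q R K := by
  obtain ⟨S, K, h, hS⟩ := main_aux hpq h23 _ G rfl hs ⟨H, H, le_rfl, hH, le_norm H, hd⟩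
  obtain ⟨g, -, rfl⟩ := Syl.exists_conj_eq hS hR
  exact ⟨_, h.conj g⟩

end Cfsg.Lib.AQ
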